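import Cfsg.Agent.H112.GLB.Main
import Cfsg.Agent.H614.GLn.GB1
import Cfsg.Agent.H577.GLB.Fam
import Cfsg.Agent.H38.S4536.N3
import Cfsg.Agent.H76.GLB.DE2
import Cfsg.Agent.H577.GLB.Rank
import Cfsg.Agent.H666.Clif.Desc
set_option linter.all false

-- part: H112/GLB/Final
section
/-!
# HUB S4536: GB2, GB3, GB4, GB4' in the exact text of `tools/plans/S4536_gl.lean`
-/

set_option autoImplicit false
set_option linter.unusedVariables false

open Polynomial Cfsg
open scoped ComplexConjugate TensorProduct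

namespace Cfsg.Agent.H577.GLB.Real

open Cfsg.Agent.H614.GLn Cfsg.Agent.H577.GLB.Std Cfsg.Agent.H657 Cfsg.Agent.Blocks.Covering

universe u v w

section
variable {F : Type u} [Field F] [Finite F] {K : Type w} [Field K] [Algebra F K] {θ : K →*₀ ℂ} {N M : ℕ} [NeZero M]
  {p : ℕ}

variable {𝔐 : Ideal AlgInt} {V : ValuationSubring ℂ}

/-- GB2: blocks are contained in families -/
theorem sameFam_of_mem (hctx : Ctx F θ N M) (hpF : p ≠ ringChar F) (h𝔐 : IsPModular p 𝔐) {m n : ℕ}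
    (hn : n ≤ N) (hm : n ≤ m) {B : Set (IrrCharacter (GL (Fin n) F))} (hB : IsPBlock 𝔐 B)
    {χ χ' : IrrCharacter (GL (Fin n) F)} (hχ : χ ∈ B) (hχ' : χ' ∈ B) {t t' : LabZ (Nat.card F) M m n}
    (ht : IsLab θ M m n χ t) (ht' : IsLab θ M m n χ' t') : SameFam (Nat.card F) M p t.t t'.t :=
  H112.GLB.sameFam_of_mem_of hctx hpF h𝔐 hn hm (isLab_bij hctx hn hm) hB hχ hχ' ht ht'

/-- GB3: every block contains a character with labels of order prime to `p` -/
theorem exists_pOnly_mem (hctx : Ctx F θ N M) (hpF : p ≠ ringChar F) (h𝔐 : IsPModular p 𝔐) {m n : ℕ}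
    (hn : n ≤ N) (hm : n ≤ m) {B : Set (IrrCharacter (GL (Fin n) F))} (hB : IsPBlock 𝔐 B) :
    ∃ χ ∈ B, ∃ t : LabZ (Nat.card F) M m n, IsLab θ M m n χ t ∧ POnly M p t.t :=
  H112.GLB.exists_pOnly_mem_lab hctx hpF h𝔐 hn hm (isLab_bij hctx hn hm) hB

/-- GB4: the Brauer characters of a block fixed by a linear character of order prime to `p` -/
theorem card_fixed_le (hctx : Ctx F θ N M) (hpF : p ≠ ringChar F) (h𝔐 : IsPModular p 𝔐) (hV : Above 𝔐 V)
    {m n : ℕ} (hn : n ≤ N) (hm : n ≤ m) {B : Set (IrrCharacter (GL (Fin n) F))} (hB : IsPBlock 𝔐 B)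
    {χ : IrrCharacter (GL (Fin n) F)} (hχ : χ ∈ B) {t : LabZ (Nat.card F) M m n} (ht : IsLab θ M m n χ t)
    (ht' : POnly M p t.t) (a : ZMod M) (ha : TorZ (Nat.card F) M 1 a) (ha' : PReg M p a) :
    Nat.card {i : IBr V (GL (Fin n) F) // i ∈ ibrUnder V B ∧
      (fun g => lin F θ M a (Matrix.GeneralLinearGroup.det g) * phi p i g) = phi p i} ≤
      nfix (Nat.card F) M p t a :=
  H112.GLB.card_fixed_le_lab hctx hpF h𝔐 hV hn hm (isLab_bij hctx hn hm) hB hχ ht ht' a ha ha'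

/-- GB4': a linear character of order prime to `p` stabilising the block stabilises the family -/
theorem stab_of_block (hctx : Ctx F θ N M) (hpF : p ≠ ringChar F) (h𝔐 : IsPModular p 𝔐)
    {m n : ℕ} (hn : n ≤ N) (hm : n ≤ m) {B : Set (IrrCharacter (GL (Fin n) F))} (hB : IsPBlock 𝔐 B)
    {χ χ' : IrrCharacter (GL (Fin n) F)} (hχ : χ ∈ B) (hχ' : χ' ∈ B) {t : LabZ (Nat.card F) M m n}
    (ht : IsLab θ M m n χ t) (ht' : POnly M p t.t) (a : ZMod M) (ha : TorZ (Nat.card F) M 1 a)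
    (ha' : PReg M p a)
    (h : ∀ g, (χ' : GL (Fin n) F → ℂ) g = lin F θ M a (Matrix.GeneralLinearGroup.det g) * (χ : GL (Fin n) F → ℂ) g) :
    Stab (Nat.card F) M p t a :=
  H112.GLB.stab_of_block_lab hctx hpF h𝔐 hn hm (isLab_bij hctx hn hm) hB hχ hχ' ht ht' a ha ha' h

/-- the families are unions of blocks -/
theorem isUnion_famSet (hctx : Ctx F θ N M) (hpF : p ≠ ringChar F) (h𝔐 : IsPModular p 𝔐) {m n : ℕ}
    (hn : n ≤ N) (hm : n ≤ m) (t₀ : LabZ (Nat.card F) M m n) :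
    H608.BlockRank.IsUnion 𝔐 (famSet θ p t₀) :=
  H112.GLB.isUnion_famSet_lab hctx hpF h𝔐 hn hm (isLab_bij hctx hn hm) t₀

end
end Cfsg.Agent.H577.GLB.Real
end

-- part: H577/GLB/Exc
section
/-!
# HUB S4536: the number of Brauer characters in a family and the exceptional cases

* `card_ibr_fam_le`: the number of irreducible Brauer characters in a family is at most the number of its `p'`-labels;
* `sum_le`: `|I| ≤ P`, all `κ i ≤ w`, at least `P'` of them equal to one: `∑ κ i + P' (w - 1) ≤ P w`.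
-/

set_option autoImplicit false
set_option linter.unusedVariables false

open Polynomial Cfsg Module
open scoped ComplexConjugate TensorProduct

namespace Cfsg.Agent.H577.GLB.Exc

open Cfsg.Agent.H614.GLn Cfsg.Agent.H577.GLB.Std Cfsg.Agent.H657 Cfsg.Agent.H577.GLB.Real Cfsg.Agent.H112.GLB

universe u v w

section
variable {F : Type u} [Field F] [Finite F] {K : Type w} [Field K] [Algebra F K] {θ : K →*₀ ℂ} {N M : ℕ} [NeZero M]
  {p : ℕ} {𝔐 : Ideal AlgInt} {V : ValuationSubring ℂ}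

/-- there are finitely many labels -/
theorem finite_lab (hctx : Ctx F θ N M) {m n : ℕ} (hn : n ≤ N) (hm : n ≤ m) : Finite (LabZ (Nat.card F) M m n) := by
  have := Characters.Core.finite_irr (G := GL (Fin n) F)
  obtain ⟨h1, h2⟩ := isLab_bij hctx hn hm
  choose f hf hf' using h2
  refine Finite.of_injective f fun t t' h => ?_
  have h3 := hf t
  rw [h] at h3
  exact (h1 (f t')).unique h3 (hf t')

/-- the number of irreducible Brauer characters in a family is at most the number of `p'`-labels -/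
theorem card_ibr_fam_le (hctx : Ctx F θ N M) (hpF : p ≠ ringChar F) (h𝔐 : IsPModular p 𝔐) (hV : Above 𝔐 V)
    {m n : ℕ} (hn : n ≤ N) (hm : n ≤ m) (t₀ : LabZ (Nat.card F) M m n) :
    Nat.card (ibrUnder V (famSet θ p t₀)) ≤ nfix (Nat.card F) M p t₀ 0 := by
  classical
  have : Fact p.Prime := ⟨h𝔐.1⟩
  have : CharP (IsLocalRing.ResidueField V) p := hV.charP h𝔐
  rw [← finrank_span_phi (p := p)]
  set R := GLrz hctx h𝔐.1 hpF hn with hR
  let ι := {t : LabZ (Nat.card F) M m n // POnly M p t.t ∧ SameFam (Nat.card F) M p t₀.t t.t ∧ ∀ c, t.t (c + 0) = t.t c}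
  have hfin0 := finite_lab (F := F) hctx hn hm
  have hfin : Finite ι := inferInstance
  have := Fintype.ofFinite ι
  let f : ι → (GL (Fin n) F → ℂ) := fun t => R.om (tauP (Nat.card F) M p (SchP (Nat.card F) M t.1.t))
  have hle : Submodule.span ℂ (phi p '' ibrUnder V (famSet θ p t₀)) ≤ Submodule.span ℂ (Set.range f) := by
    rw [Submodule.span_le]
    rintro _ ⟨i, hi, rfl⟩
    have h := R.phi_mem_span' h𝔐 hV hm (isLab_bij hctx hn hm) t₀ (i := i) hi
    refine Submodule.span_mono ?_ h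
    rintro _ ⟨t', ht', rfl⟩
    exact ⟨⟨t'.1, t'.2, ht', fun c => by rw [add_zero]⟩, rfl⟩
  have : FiniteDimensional ℂ (Submodule.span ℂ (Set.range f)) := FiniteDimensional.span_of_finite ℂ (Set.finite_range f)
  refine (Submodule.finrank_mono hle).trans ?_
  refine (finrank_range_le_card (R := ℂ) f).trans (le_of_eq ?_)
  rw [nfix, Nat.card_eq_fintype_card]

end

/-- the elementary inequality -/
theorem sum_le {ι : Type*} [Fintype ι] [DecidableEq ι] (κ : ι → ℕ) {P P' w : ℕ} (hw : 1 ≤ w)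
    (hP : Fintype.card ι ≤ P) (hκ : ∀ i, κ i ≤ w) (hP' : P' ≤ (Finset.univ.filter fun i => κ i = 1).card) :
    ∑ i, κ i + P' * (w - 1) ≤ P * w := by
  have h1 : ∀ i, κ i + (if κ i = 1 then w - 1 else 0) ≤ w := by
    intro i
    split_ifs with h
    · omega
    · exact hκ i
  have h2 : ∑ i, κ i + (Finset.univ.filter fun i => κ i = 1).card * (w - 1) ≤ Fintype.card ι * w := by
    calc ∑ i, κ i + (Finset.univ.filter fun i => κ i = 1).card * (w - 1)
        = ∑ i, (κ i + (if κ i = 1 then w - 1 else 0)) := by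
          rw [Finset.sum_add_distrib, Finset.sum_ite, Finset.sum_const_zero, add_zero, Finset.sum_const, smul_eq_mul]
      _ ≤ ∑ _i : ι, w := Finset.sum_le_sum fun i _ => h1 i
      _ = Fintype.card ι * w := by rw [Finset.sum_const, smul_eq_mul, Finset.card_univ]
  calc ∑ i, κ i + P' * (w - 1) ≤ ∑ i, κ i + (Finset.univ.filter fun i => κ i = 1).card * (w - 1) :=
        Nat.add_le_add_left (Nat.mul_le_mul_right _ hP') _
    _ ≤ Fintype.card ι * w := h2
    _ ≤ P * w := Nat.mul_le_mul_right _ hP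

/-- the total weight of a label over one orbit -/
theorem totW_onlyOn {Q : ℤ} {M : ℕ} [NeZero M] {p : ℕ} (hQ : IsUnit (Q : ZMod M)) (hQp : (Q : ZMod p) = 1) {m n : ℕ}
    (t₀ : LabZ Q M m n) (h₀ : POnly M p t₀.t) (δ₀ : ZMod M) (h₁ : OnlyOn Q M δ₀ t₀.t) (hw : 0 < Std.bsz (t₀.t δ₀)) :
    totW Q M p t₀.t = Std.bsz (t₀.t δ₀) := by
  classical
  have hpos : ∀ δ, 0 < Std.bsz (t₀.t δ) → PReg M p δ := fun δ hδ => by
    by_contra h
    exact hδ.ne' (h₀ δ h)
  have hc : t₀.t (canon Q M δ₀) = t₀.t δ₀ := RSt.t_canon t₀.t t₀.orb δ₀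
  have hcc : canon Q M (canon Q M δ₀) = canon Q M δ₀ := RSt.canon_canon hQ δ₀
  unfold totW
  rw [Finset.sum_eq_single (canon Q M δ₀)]
  · rw [H76.GLB.eD_one hQp, H76.GLB.ewt_one, hc]
  · intro δ hδ hne
    rw [H76.GLB.eD_one hQp, H76.GLB.ewt_one]
    by_contra h
    have h2 := h₁ δ (Nat.pos_of_ne_zero h)
    apply hne
    rw [← (Finset.mem_filter.1 hδ).2.1]
    exact (RSt.canon_eq_of_same hQ h2).symm
  · intro h
    exfalso
    apply h
    rw [Finset.mem_filter]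
    refine ⟨Finset.mem_univ _, hcc, hpos _ ?_⟩
    rw [hc]
    exact hw

open Cfsg.Agent.H666.Clif (pKer)

/-- the number of constituents: a divisor of `w`, `w` a power of two -/
theorem sum_kappa_le {ι : Type*} [Fintype ι] (κ : ι → ℕ) {w : ℕ} (hw : w = 2 ∨ w = 4 ∨ w = 8)
    (hP : Nat.card ι ≤ Fintype.card (Nat.Partition w)) (hκ : ∀ i, κ i ∣ w)
    (hP' : Fintype.card (Nat.Partition (w - 1)) ≤ Nat.card {i : ι // κ i = 1}) :
    (w = 2 → ∑ i, κ i ≤ 3) ∧ (w = 4 → ∑ i, κ i ≤ 11) ∧ (w = 8 → ∑ i, κ i ≤ 71) := by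
  classical
  obtain ⟨c1, c2, c3, c4, -, -, c7, c8⟩ := Cfsg.Agent.H38.S4536.card_partition_small
  have hw0 : 0 < w := by rcases hw with h | h | h <;> omega
  have h := sum_le (ι := ι) κ (P := Fintype.card (Nat.Partition w)) (P' := Fintype.card (Nat.Partition (w - 1)))
    (w := w) hw0 (by rwa [Nat.card_eq_fintype_card] at hP) (fun i => Nat.le_of_dvd hw0 (hκ i)) (by
      rwa [Nat.card_eq_fintype_card, Fintype.card_subtype] at hP')
  refine ⟨?_, ?_, ?_⟩
  · rintro rfl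
    rw [c2, show 2 - 1 = 1 from rfl, c1] at h
    omega
  · rintro rfl
    rw [c4, show 4 - 1 = 3 from rfl, c3] at h
    omega
  · rintro rfl
    rw [c8, show 8 - 1 = 7 from rfl, c7] at h
    omega

section main
variable {F : Type u} [Field F] [Finite F] {K : Type u} [Field K] [Algebra F K] {θ : K →*₀ ℂ} {N M : ℕ} [NeZero M]
  {𝔐 : Ideal AlgInt} {V : ValuationSubring ℂ}

/-- **The exceptional case** `p = 2`, one orbit, `w = 2, 4, 8`, from its parts. -/
theorem exc_of (hctx : Ctx F θ N M) (hpF : 2 ≠ ringChar F) (h𝔐 : IsPModular 2 𝔐) (hV : Above 𝔐 V) {m n : ℕ}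
    (hn : n ≤ N) (hm : n ≤ m) {B : Set (IrrCharacter (GL (Fin n) F))} (hB : IsPBlock 𝔐 B)
    {B' : Set (IrrCharacter (slS F n))} (hB' : IsPBlock 𝔐 B') (hcov : Cov (slS F n) B B')
    (D' : Subgroup (slS F n)) (hD' : IsDefectGroup 2 𝔐 B' D') {s : ℕ} (hs : SectionalPRankLE 2 s D')
    {χ : IrrCharacter (GL (Fin n) F)} (hχ : χ ∈ B) {t₀ : LabZ (Nat.card F) M m n} (ht : IsLab θ M m n χ t₀)
    (h₀ : POnly M 2 t₀.t) (δ₀ : ZMod M) (h₁ : OnlyOn (Nat.card F) M δ₀ t₀.t)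
    (hw : Std.bsz (t₀.t δ₀) = 2 ∨ Std.bsz (t₀.t δ₀) = 4 ∨ Std.bsz (t₀.t δ₀) = 8)
    -- `exists_elab`
    (helab : ∀ D : Subgroup (GL (Fin n) F), IsDefectGroup 2 𝔐 B D → ∃ A : Subgroup (GL (Fin n) F), A ≤ D ∧
      (∀ x ∈ A, ∀ y ∈ A, x * y = y * x) ∧ (∀ x ∈ A, x ^ 2 = 1) ∧ Nat.card A = 2 ^ totW (Nat.card F) M 2 t₀.t)
    -- E1
    (hE1 : Std.bsz (t₀.t δ₀) = 2 → ∀ D : Subgroup (GL (Fin n) F), IsDefectGroup 2 𝔐 B D →
      ¬ IsCyclic (D ⊓ slS F n : Subgroup (GL (Fin n) F)))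
    -- E2
    (hE2 : Std.bsz (t₀.t δ₀) = 4 → ∀ D : Subgroup (GL (Fin n) F), IsDefectGroup 2 𝔐 B D → ∀ s : ℕ,
      SectionalPRankLE 2 s (D ⊓ slS F n : Subgroup (GL (Fin n) F)) → 4 ≤ s)
    -- the constituents
    (O : IBr V (GL (Fin n) F) → Finset (IBr V (pKer (slS F n) 2)))
    (hκ : ∀ i ∈ ibrUnder V (famSet θ 2 t₀), (O i).card ∣ Std.bsz (t₀.t δ₀))
    (hP5 : Fintype.card (Nat.Partition (Std.bsz (t₀.t δ₀) - 1)) ≤
      Nat.card {i : IBr V (GL (Fin n) F) // i ∈ ibrUnder V (famSet θ 2 t₀) ∧ (O i).card = 1})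
    -- the descent
    [Fintype (ibrUnder V B)] (c : ℕ) (hc : 0 < c) (A : IBr V (GL (Fin n) F) → ℕ)
    (hA : ∀ i ∈ ibrUnder V B, A i ≤ c)
    (hdesc : blockRank 2 B' * c ≤ ∑ i : ibrUnder V B, A i * (O i).card) :
    blockRank 2 B' ≤ 2 ^ s := by
  classical
  have := Fintype.ofFinite (IBr V (GL (Fin n) F))
  have hQ : IsUnit (((Nat.card F : ℕ) : ℤ) : ZMod M) := (GLrz hctx h𝔐.1 hpF hn).unit
  have hq2 : (((Nat.card F : ℕ) : ℤ) : ZMod 2) = 1 := by
    rw [Int.cast_natCast]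
    have h1 : Nat.card F % 2 = 1 := by
      have := Fintype.ofFinite F
      rw [Nat.card_eq_fintype_card]
      exact FiniteField.odd_card_of_char_ne_two (Ne.symm hpF)
    have h2 : ((Nat.card F : ℕ) : ZMod 2) = ((Nat.card F % 2 : ℕ) : ZMod 2) := by
      rw [ZMod.natCast_mod]
    rw [h2, h1, Nat.cast_one]
  obtain ⟨hP, -, -⟩ := H76.GLB.card_family_one (p := 2) h𝔐.1 hQ hq2 hm t₀ h₀ δ₀ h₁
  have hfam := card_ibr_fam_le (V := V) hctx hpF h𝔐 hV hn hm t₀
  rw [hP] at hfam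
  -- the sum over the block is at most the sum over the family
  have hsub : ibrUnder V B ⊆ ibrUnder V (famSet θ 2 t₀) := by
    rintro i ⟨ψ, hψ, hi⟩
    obtain ⟨t', ht', -⟩ := (isLab_bij hctx hn hm).1 ψ
    exact ⟨ψ, ⟨t', ht', sameFam_of_mem hctx hpF h𝔐 hn hm hB hχ hψ ht ht'⟩, hi⟩
  have := Fintype.ofFinite (ibrUnder V (famSet θ 2 t₀))
  have h2 : blockRank 2 B' ≤ ∑ i : ibrUnder V B, (O i).card := by
    have h3 : blockRank 2 B' * c ≤ (∑ i : ibrUnder V B, (O i).card) * c := by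
      refine hdesc.trans ?_
      rw [Finset.sum_mul]
      refine Finset.sum_le_sum fun i _ => ?_
      rw [mul_comm]
      exact Nat.mul_le_mul_left _ (hA i i.2)
    exact Nat.le_of_mul_le_mul_right h3 hc
  have h3 : ∑ i : ibrUnder V B, (O i).card ≤ ∑ i : ibrUnder V (famSet θ 2 t₀), (O i).card := by
    let f : ibrUnder V B → ibrUnder V (famSet θ 2 t₀) := fun i => ⟨i, hsub i.2⟩
    have hf : Function.Injective f := fun i j h => Subtype.ext (congrArg Subtype.val h :)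
    calc ∑ i : ibrUnder V B, (O i).card = ∑ j ∈ Finset.univ.map ⟨f, hf⟩, (O j).card := by
          rw [Finset.sum_map]
          rfl
      _ ≤ ∑ i : ibrUnder V (famSet θ 2 t₀), (O i).card :=
          Finset.sum_le_sum_of_subset (Finset.subset_univ _)
  have h4 := sum_kappa_le (ι := ibrUnder V (famSet θ 2 t₀)) (fun i => (O i).card) hw hfam
    (fun i => hκ i i.2) (hP5.trans (le_of_eq (Nat.card_congr (Equiv.subtypeSubtypeEquivSubtypeInter _ _).symm)))
  obtain ⟨k2, k4, k8⟩ := h4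
  have h5 := h2.trans h3
  obtain ⟨P, hP1, hP2⟩ := Rank.exists_inf h𝔐 (slS F n) hB hB' hcov D' hD'
  have hsP : SectionalPRankLE 2 s (P ⊓ slS F n : Subgroup (GL (Fin n) F)) := by
    rw [hP2]
    exact H583.SecRank.sectional_of_mulEquiv hs (D'.equivMapOfInjective _ (slS F n).subtype_injective)
  rcases hw with hw | hw | hw
  · have h6 : 2 ≤ s := by
      refine Rank.two_le h𝔐.1 ?_ (hE1 hw P hP1) hsP
      have h7 : IsPGroup 2 P := Cfsg.Agent.Blocks.Basic.isPGroup_of_isDefectGroup hP1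
      exact h7.to_le inf_le_left
    exact (h5.trans (k2 hw)).trans (le_trans (by norm_num) (Nat.pow_le_pow_right (by norm_num) h6))
  · have h6 : 4 ≤ s := hE2 hw P hP1 s hsP
    exact (h5.trans (k4 hw)).trans (le_trans (by norm_num) (Nat.pow_le_pow_right (by norm_num) h6))
  · have h6 : 8 ≤ s + 1 := by
      have h7 := (Rank.weight_le h𝔐 hB hB' hcov D' hD' hs helab).1
      rwa [totW_onlyOn hQ hq2 t₀ h₀ δ₀ h₁ (by rw [hw]; norm_num), hw] at h7
    have h8 : 7 ≤ s := by omega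
    exact (h5.trans (k8 hw)).trans (le_trans (by norm_num) (Nat.pow_le_pow_right (by norm_num) h8))

end main

end Cfsg.Agent.H577.GLB.Exc
end
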